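import Mathlib
import Cfsg.Agent.Schreier.Tools

/-!
# Cosets of inner automorphisms containing elements of even order

`Ev φ`: some element of the coset `Inn(K) φ` has even order; `Fx K`: this holds for every automorphism of `K`.
For a group with trivial centre `Ev φ` holds as soon as `φ` fixes an element of even order, or a conjugacy class of
elements of even order, or normalises a pair of subgroups of index two in each other.
-/

set_option autoImplicit false

namespace Cfsg.Agent.H487.EvenCoset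

variable {K : Type*} [Group K]

/-- Some element of the coset `Inn(K) φ` has even order. -/
def Ev (φ : MulAut K) : Prop := ∃ k : K, Even (orderOf (MulAut.conj k * φ))

/-- Every coset of inner automorphisms contains an element of even order. -/
def Fx (K : Type*) [Group K] : Prop := ∀ φ : MulAut K, Ev φ

theorem ev_of_even {φ : MulAut K} (h : Even (orderOf φ)) : Ev φ :=
  ⟨1, by rw [map_one, one_mul]; exact h⟩

theorem Ev.of_conj_mul {φ : MulAut K} {g : K} (h : Ev (MulAut.conj g * φ)) : Ev φ := by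
  obtain ⟨k, hk⟩ := h
  refine ⟨k * g, ?_⟩
  rw [map_mul, mul_assoc]
  exact hk

/-- If the automorphism `φ` fixes an element of even order then some element of `Inn(K) φ` has even order. -/
theorem ev_of_fixed (hc : Subgroup.center K = ⊥) (φ : MulAut K) (t : K) (h2 : Even (orderOf t))
    (hf : φ t = t) : Ev φ := by
  by_contra hcon
  have h1 : Odd (orderOf φ) := by
    rw [← Nat.not_even_iff_odd]
    exact fun h => hcon (ev_of_even h)
  have h3 : Odd (orderOf (MulAut.conj t * φ)) := by
    rw [← Nat.not_even_iff_odd]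
    exact fun h => hcon ⟨t, h⟩
  have hcomm : Commute (MulAut.conj t) φ := by
    show MulAut.conj t * φ = φ * MulAut.conj t
    apply MulEquiv.ext
    intro x
    rw [MulAut.mul_apply, MulAut.mul_apply, MulAut.conj_apply, MulAut.conj_apply, map_mul, map_mul, map_inv, hf]
  set n := orderOf (MulAut.conj t * φ) with hn
  set m := orderOf φ with hm
  have h4 : (MulAut.conj t * φ) ^ (n * m) = 1 := by
    rw [pow_mul, hn, pow_orderOf_eq_one, one_pow]
  rw [hcomm.mul_pow, mul_comm n m, pow_mul φ, hm, pow_orderOf_eq_one, one_pow, mul_one, ← map_pow] at h4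
  have h5 : t ^ (orderOf φ * n) ∈ Subgroup.center K := by
    rw [Subgroup.mem_center_iff]
    intro x
    have h6 := DFunLike.congr_fun h4 x
    rw [MulAut.conj_apply, MulAut.one_apply, mul_inv_eq_iff_eq_mul] at h6
    exact h6.symm
  rw [hc, Subgroup.mem_bot] at h5
  have h6 : orderOf t ∣ orderOf φ * n := orderOf_dvd_of_pow_eq_one h5
  have h7 : Odd (orderOf φ * n) := h1.mul h3
  rw [← Nat.not_even_iff_odd] at h7
  exact h7 (h2.trans_dvd h6)

/-- If the automorphism `φ` fixes the class of an element of even order then some element of `Inn(K) φ` has even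
order. -/
theorem ev_of_isConj (hc : Subgroup.center K = ⊥) (φ : MulAut K) (t : K) (h2 : Even (orderOf t))
    (h : IsConj (φ t) t) : Ev φ := by
  obtain ⟨c, hc'⟩ := isConj_iff.1 h
  refine Ev.of_conj_mul (g := c) (ev_of_fixed hc _ t h2 ?_)
  rw [MulAut.mul_apply, MulAut.conj_apply, hc']

/-- **Transfer along an isomorphism.** -/
theorem Fx.of_equiv {L : Type*} [Group L] (e : K ≃* L) (h : Fx K) : Fx L := by
  intro φ
  let E : MulAut L ≃* MulAut K := MulAut.congr e.symm
  obtain ⟨k, hk⟩ := h (E φ)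
  refine ⟨e k, ?_⟩
  have h1 : E (MulAut.conj (e k) * φ) = MulAut.conj k * E φ := by
    rw [map_mul]
    congr 1
    apply MulEquiv.ext
    intro x
    simp [E, MulAut.congr, MulAut.conj_apply]
  rw [← orderOf_injective E.toMonoidHom E.injective]
  show Even (orderOf (E (MulAut.conj (e k) * φ)))
  rw [h1]
  exact hk

/-- **Index two.**  If `φ` normalises the subgroups `D₀ < D`, `D₀` of index two in `D`, then some element of
`Inn(K) φ` has even order. -/
theorem ev_of_index_two [Finite K] (hc : Subgroup.center K = ⊥) (φ : MulAut K) (D D₀ : Subgroup K)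
    (hle : D₀ ≤ D) (hD : ∀ x ∈ D, φ x ∈ D) (hD₀ : ∀ x ∈ D₀, φ x ∈ D₀) (h2 : D₀.relIndex D = 2) : Ev φ := by
  classical
  have hmap : ∀ A : Subgroup K, (∀ x ∈ A, φ x ∈ A) → ∀ x, φ x ∈ A → x ∈ A := by
    intro A hA x hx
    have h1 : A.map φ.toMonoidHom = A := by
      apply Subgroup.eq_of_le_of_card_ge
      · rintro _ ⟨a, ha, rfl⟩
        exact hA a ha
      · exact le_of_eq (Nat.card_congr (A.equivMapOfInjective φ.toMonoidHom φ.injective).toEquiv)
    rw [← h1] at hx
    obtain ⟨y, hy, hyx⟩ := hx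
    have : y = x := φ.injective hyx
    rwa [← this]
  let φD : MulAut D :=
    { toFun := fun x => ⟨φ x, hD x x.2⟩
      invFun := fun x => ⟨φ.symm x, hmap D hD _ (by rw [MulEquiv.apply_symm_apply]; exact x.2)⟩
      left_inv := fun x => Subtype.ext (φ.symm_apply_apply _)
      right_inv := fun x => Subtype.ext (φ.apply_symm_apply _)
      map_mul' := fun x y => Subtype.ext (map_mul φ _ _) }
  let E : Subgroup D := D₀.subgroupOf D
  have hE : E.index = 2 := h2
  have hEφ : ∀ x : D, φD x ∈ E ↔ x ∈ E := by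
    intro x
    show φ x ∈ D₀ ↔ (x : K) ∈ D₀
    exact ⟨fun h => hmap D₀ hD₀ _ h, fun h => hD₀ _ h⟩
  have hprime : Fact (Nat.Prime 2) := ⟨Nat.prime_two⟩
  let Y : Sylow 2 D := default
  obtain ⟨g, hg⟩ := MulAction.exists_smul_eq D Y (φD • Y)
  -- the automorphism `β` of `D` normalises `Y`
  let β : MulAut D := (MulAut.conj g)⁻¹ * φD
  have hβY : ∀ y ∈ (Y : Subgroup D), β y ∈ (Y : Subgroup D) := by
    intro u hu
    have h2 : φD u ∈ ((φD • Y : Sylow 2 D) : Subgroup D) := by
      rw [Sylow.pointwise_smul_def]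
      exact Subgroup.smul_mem_pointwise_smul u φD _ hu
    rw [← hg, Sylow.smul_def, Sylow.pointwise_smul_def, Subgroup.mem_pointwise_smul_iff_inv_smul_mem] at h2
    exact h2
  have hβE : ∀ x : D, β x ∈ E ↔ x ∈ E := by
    intro x
    have h3 : β x = g⁻¹ * φD x * g := by
      show (MulAut.conj g)⁻¹ (φD x) = _
      rw [← map_inv, MulAut.conj_apply, inv_inv]
    rw [h3, Subgroup.mul_mem_iff_of_index_two hE, Subgroup.mul_mem_iff_of_index_two hE, hEφ, inv_mem_iff]
    tauto
  -- an element of `Y` outside `E`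
  have hYE : ∃ y ∈ (Y : Subgroup D), y ∉ E := by
    by_contra hcon
    push Not at hcon
    have h3 : (Y : Subgroup D) ≤ E := hcon
    have h4 := Subgroup.relIndex_mul_index h3
    have h5 : ¬ 2 ∣ (Y : Subgroup D).index := Y.not_dvd_index
    apply h5
    rw [← h4, hE]
    exact Dvd.intro_left _ rfl
  -- a fixed point of `β` in `Y`
  have hfix : ∃ y ∈ (Y : Subgroup D), y ≠ 1 ∧ β y = y := by
    by_contra hcon
    push Not at hcon
    let f : ↥(Y : Subgroup D) → ↥(Y : Subgroup D) := fun r =>
      ⟨(r : D)⁻¹ * β r, mul_mem (inv_mem r.2) (hβY _ r.2)⟩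
    have hinj : Function.Injective f := by
      intro r r' h
      have h3 : (r : D)⁻¹ * β r = (r' : D)⁻¹ * β r' := congrArg Subtype.val h
      by_contra hne
      apply hcon ((r' : D) * (r : D)⁻¹) (mul_mem r'.2 (inv_mem r.2))
      · intro h4
        apply hne
        apply Subtype.ext
        rw [mul_inv_eq_one] at h4
        exact h4.symm
      · rw [map_mul, map_inv]
        have h4 : β (r' : D) = (r' : D) * ((r : D)⁻¹ * β r) := by rw [h3]; group
        rw [h4]; group
    have hsurj : Function.Surjective f := Finite.surjective_of_injective hinj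
    obtain ⟨y, hy, hyE⟩ := hYE
    obtain ⟨r, hr⟩ := hsurj ⟨y, hy⟩
    apply hyE
    have h3 : (r : D)⁻¹ * β r = y := congrArg Subtype.val hr
    rw [← h3, Subgroup.mul_mem_iff_of_index_two hE, inv_mem_iff, hβE]
  obtain ⟨y, hy, hy1, hyβ⟩ := hfix
  refine Ev.of_conj_mul (g := ((g⁻¹ : D) : K)) (ev_of_fixed hc _ (y : K) ?_ ?_)
  · obtain ⟨k, hk⟩ := (Y.2 ⟨y, hy⟩)
    have h3 : y ^ 2 ^ k = 1 := congrArg Subtype.val hk
    have h4 : (y : K) ^ 2 ^ k = 1 := by
      rw [← Subgroup.coe_pow, h3, Subgroup.coe_one]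
    have h5 := orderOf_dvd_of_pow_eq_one h4
    obtain ⟨j, hj, hj2⟩ := (Nat.dvd_prime_pow Nat.prime_two).1 h5
    rw [hj2]
    have hj0 : j ≠ 0 := by
      rintro rfl
      rw [pow_zero, orderOf_eq_one_iff] at hj2
      exact hy1 (Subtype.ext hj2)
    exact (Nat.even_pow).2 ⟨even_two, hj0⟩
  · have h3 : β y = g⁻¹ * φD y * g := by
      show (MulAut.conj g)⁻¹ (φD y) = _
      rw [← map_inv, MulAut.conj_apply, inv_inv]
    rw [h3] at hyβ
    have h4 := congrArg Subtype.val hyβ
    rw [MulAut.mul_apply, MulAut.conj_apply]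
    have h5 : ((g⁻¹ * φD y * g : D) : K) = ((g⁻¹ : D) : K) * φ (y : K) * (((g⁻¹ : D) : K))⁻¹ := by
      rw [Subgroup.coe_mul, Subgroup.coe_mul, Subgroup.coe_inv, inv_inv]
      rfl
    rw [← h5]
    exact h4

/-- A group all of whose automorphisms of odd order are inner. -/
theorem ev_of_inner [Finite K] (hc : Subgroup.center K = ⊥) (h2 : Even (Nat.card K)) (k : K) :
    Ev (MulAut.conj k) := by
  have hp : Fact (Nat.Prime 2) := ⟨Nat.prime_two⟩
  obtain ⟨t, ht⟩ := exists_prime_orderOf_dvd_card' 2 (even_iff_two_dvd.1 h2)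
  refine Ev.of_conj_mul (g := k⁻¹) (ev_of_fixed hc _ t (by rw [ht]; exact even_two) ?_)
  rw [map_inv, inv_mul_cancel, MulAut.one_apply]

end Cfsg.Agent.H487.EvenCoset
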