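import Mathlib
import Cfsg.Prelude.Def_Local
import Cfsg.Agent.SignalizersComponents.ComponentExists
import Cfsg.Agent.SignalizersComponents.Components
import Cfsg.Agent.SignalizersComponents.ComponentNormalize
import Cfsg.Agent.Schreier.KBalance
import Cfsg.Agent.Lib.Cores
import Cfsg.Agent.H487.FxBasic

/-!
# Splitting automorphisms: reduction to simple groups

If `α ^ n = 1`, `n` odd, and `x · α(x) ⋯ α^(n-1)(x) = 1` for all `x`, then `G` is solvable, provided that every coset
of inner automorphisms of every non-abelian finite simple group contains an element of even order.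
-/

set_option autoImplicit false

namespace Cfsg.Agent.H487.EvenCoset

open Cfsg.Agent.SignalizersComponents.ComponentExists Cfsg.Agent.SignalizersComponents.Components

universe u

/-- `x · α(x) ⋯ α^(n-1)(x)`. -/
def nrm {G : Type*} [Group G] (α : MulAut G) (n : ℕ) (x : G) : G :=
  ((List.range n).map (fun i : ℕ => (α ^ i) x)).prod

theorem nrm_succ {G : Type*} [Group G] (α : MulAut G) (n : ℕ) (x : G) :
    nrm α (n + 1) x = nrm α n x * (α ^ n) x := by
  unfold nrm
  rw [List.range_succ, List.map_append, List.prod_append, List.map_singleton, List.prod_singleton]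

theorem conj_mul_pow {G : Type*} [Group G] (α : MulAut G) (x : G) (n : ℕ) :
    (MulAut.conj x * α) ^ n = MulAut.conj (nrm α n x) * α ^ n := by
  induction n with
  | zero => simp [nrm]
  | succ n ih =>
    rw [pow_succ, ih, nrm_succ, map_mul, pow_succ]
    apply MulEquiv.ext
    intro y
    simp only [MulAut.mul_apply, MulAut.conj_apply, map_mul, map_inv, mul_inv_rev, mul_assoc]

/-- `α ^ n = 1` and `x · α(x) ⋯ α^(n-1)(x) = 1` for all `x`. -/
def Spl {G : Type*} [Group G] (α : MulAut G) (n : ℕ) : Prop :=
  α ^ n = 1 ∧ ∀ x : G, nrm α n x = 1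

/-- The induced automorphism of the quotient. -/
theorem Spl.quotient {G : Type*} [Group G] {α : MulAut G} {n : ℕ} (h : Spl α n) (R : Subgroup G) [R.Normal]
    (hR : R.map α.toMonoidHom = R) : ∃ β : MulAut (G ⧸ R), Spl β n := by
  let β : MulAut (G ⧸ R) := QuotientGroup.congr R R α hR
  have hβ : ∀ i : ℕ, ∀ x : G, (β ^ i) (QuotientGroup.mk x : G ⧸ R) = QuotientGroup.mk ((α ^ i) x) := by
    intro i
    induction i with
    | zero => intro x; rfl
    | succ i ih =>
      intro x
      rw [pow_succ, pow_succ, MulAut.mul_apply, MulAut.mul_apply, ← ih]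
      rfl
  refine ⟨β, ?_, ?_⟩
  · apply MulEquiv.ext
    intro x
    obtain ⟨x, rfl⟩ := QuotientGroup.mk_surjective x
    rw [hβ, h.1]
    rfl
  · intro x
    obtain ⟨x, rfl⟩ := QuotientGroup.mk_surjective x
    have h1 := congrArg (QuotientGroup.mk' R) (h.2 x)
    unfold nrm at h1 ⊢
    rw [map_list_prod, List.map_map, map_one] at h1
    rw [← h1]
    congr 1
    apply List.map_congr_left
    intro i _
    exact hβ i x

/-- **The core**: no splitting automorphism of odd order if there is a simple component. -/
theorem not_spl_of_component {G : Type u} [Group G] [Finite G] {α : MulAut G} {n : ℕ} (hn : Odd n) (h : Spl α n)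
    (K : Subgroup G) (hK : Cfsg.IsComponent K) (hFx : Fx ↥K) : False := by
  classical
  let f : Subgroup G → Subgroup G := fun L => L.map α.toMonoidHom
  have hf : ∀ i : ℕ, ∀ L : Subgroup G, f^[i] L = L.map (α ^ i).toMonoidHom := by
    intro i
    induction i with
    | zero =>
      intro L
      ext x
      simp
    | succ i ih =>
      intro L
      rw [Function.iterate_succ_apply', ih]
      show (L.map (α ^ i).toMonoidHom).map α.toMonoidHom = _
      rw [Subgroup.map_map, pow_succ']
      rfl
  have hcomp : ∀ i : ℕ, Cfsg.IsComponent (f^[i] K) := by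
    intro i
    rw [hf]
    exact Cfsg.Agent.SignalizersComponents.ComponentNormalize.component_map_equiv (α ^ i) hK
  set r := Function.minimalPeriod f K with hr
  have hper : Function.IsPeriodicPt f n K := by
    show f^[n] K = K
    rw [hf, h.1]
    exact Subgroup.map_id K
  have hn0 : 0 < n := hn.pos
  have hr0 : 0 < r := hper.minimalPeriod_pos hn0
  have hrn : r ∣ n := hper.minimalPeriod_dvd
  have hKr : K.map (α ^ r).toMonoidHom = K := by
    rw [← hf]
    exact Function.isPeriodicPt_minimalPeriod f K
  have hmem : ∀ k ∈ K, (α ^ r) k ∈ K := by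
    intro k hk
    rw [← hKr]
    exact ⟨k, hk, rfl⟩
  have hmem' : ∀ k ∈ K, (α ^ r).symm k ∈ K := by
    intro k hk
    rw [← hKr] at hk
    obtain ⟨y, hy, rfl⟩ := hk
    have : (α ^ r).symm ((α ^ r).toMonoidHom y) = y := (α ^ r).symm_apply_apply y
    rw [this]
    exact hy
  let β : MulAut K :=
    { toFun := fun x => ⟨(α ^ r) x, hmem x x.2⟩
      invFun := fun x => ⟨(α ^ r).symm x, hmem' x x.2⟩
      left_inv := fun x => Subtype.ext ((α ^ r).symm_apply_apply _)
      right_inv := fun x => Subtype.ext ((α ^ r).apply_symm_apply _)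
      map_mul' := fun x y => Subtype.ext (map_mul (α ^ r) _ _) }
  obtain ⟨s, hs⟩ := hFx β
  set γ : MulAut G := MulAut.conj (s : G) * α with hγ
  have hγn : γ ^ n = 1 := by
    rw [hγ, conj_mul_pow, h.2, h.1, map_one, one_mul]
  -- powers of `γ` on `K`
  have hpow : ∀ i : ℕ, i < r → ∀ k ∈ K, (γ ^ i) k = (α ^ i) k := by
    intro i
    induction i with
    | zero => intro _ k _; rfl
    | succ i ih =>
      intro hi k hk
      rw [pow_succ', MulAut.mul_apply, ih (by omega) k hk, hγ, MulAut.mul_apply, MulAut.conj_apply]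
      have h1 : α ((α ^ i) k) = (α ^ (i + 1)) k := by rw [pow_succ', MulAut.mul_apply]
      rw [h1]
      have h2 : (α ^ (i + 1)) k ∈ f^[i + 1] K := by
        rw [hf]
        exact ⟨k, hk, rfl⟩
      have hne : K ≠ f^[i + 1] K := by
        intro h3
        have h4 : Function.IsPeriodicPt f (i + 1) K := h3.symm
        have h5 := Nat.le_of_dvd (Nat.succ_pos i) h4.minimalPeriod_dvd
        omega
      have h3 := component_le_centralizer_of_ne hK (hcomp (i + 1)) hne s.2
      rw [Subgroup.mem_centralizer_iff] at h3
      have h4 := h3 _ h2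
      rw [mul_inv_eq_iff_eq_mul]
      exact h4.symm
  have hγr : ∀ k : K, (γ ^ r) (k : G) = ((MulAut.conj s * β) k : K) := by
    intro k
    obtain ⟨i, hi⟩ : ∃ i, r = i + 1 := ⟨r - 1, by omega⟩
    rw [hi, pow_succ', MulAut.mul_apply, hpow i (by omega) k k.2, hγ, MulAut.mul_apply, MulAut.conj_apply,
      MulAut.mul_apply, MulAut.conj_apply]
    have h1 : α ((α ^ i) (k : G)) = (α ^ r) (k : G) := by rw [hi, pow_succ', MulAut.mul_apply]
    rw [h1]
    rfl
  have hγrm : ∀ m : ℕ, ∀ k : K, ((γ ^ r) ^ m) (k : G) = (((MulAut.conj s * β) ^ m) k : K) := by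
    intro m
    induction m with
    | zero => intro k; rfl
    | succ m ih =>
      intro k
      rw [pow_succ', pow_succ', MulAut.mul_apply, MulAut.mul_apply, ih, hγr]
  obtain ⟨m, hm⟩ := hrn
  have h1 : (MulAut.conj s * β) ^ m = 1 := by
    apply MulEquiv.ext
    intro k
    apply Subtype.ext
    rw [← hγrm m k, ← pow_mul, ← hm, hγn]
    rfl
  have h2 := orderOf_dvd_of_pow_eq_one h1
  have h3 : Even n := by
    rw [hm]
    exact (hs.trans_dvd h2).mul_left r
  exact (Nat.not_even_iff_odd.2 hn) h3

theorem solvable_of_spl (H : ∀ (K : Type u) [Group K] [Finite K] [IsSimpleGroup K], ¬ IsMulCommutative K → Fx K)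
    {G : Type u} [Group G] [Finite G] {α : MulAut G} {n : ℕ} (hn : Odd n) (h : Spl α n) : Group.IsSolvable G := by
  obtain ⟨R, hRc, hRs, hRmax⟩ := exists_solvableRadical G
  have hRn : R.Normal := inferInstance
  have hRα : R.map α.toMonoidHom = R := Subgroup.characteristic_iff_map_eq.1 hRc α
  obtain ⟨β, hβ⟩ := h.quotient R hRα
  by_contra hns
  have hq : ¬ Group.IsSolvable (G ⧸ R) := fun h1 =>
    hns ((Group.isSolvable_iff_subgroup_quotient R).2 ⟨hRs, h1⟩)
  -- no solvable normal subgroups
  have hbot : ∀ N : Subgroup (G ⧸ R), N.Normal → Group.IsSolvable N → N = ⊥ := by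
    intro N hN hNs
    have h1 : Group.IsSolvable (N.comap (QuotientGroup.mk' R)) := by
      let g : ↥(N.comap (QuotientGroup.mk' R)) →* N :=
        ((QuotientGroup.mk' R).comp (N.comap (QuotientGroup.mk' R)).subtype).codRestrict N (fun x => x.2)
      have hker : Group.IsSolvable g.ker := by
        refine Group.isSolvable_of_isSolvable_injective (G := g.ker) (G' := R)
          (f := ((N.comap (QuotientGroup.mk' R)).subtype.comp g.ker.subtype).codRestrict R ?_) ?_
        · intro x
          have h2 : g x.1 = 1 := x.2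
          have h3 : (QuotientGroup.mk ((x.1 : ↥(N.comap (QuotientGroup.mk' R))) : G) : G ⧸ R) = 1 :=
            congrArg Subtype.val h2
          exact (QuotientGroup.eq_one_iff _).1 h3
        · intro x y hxy
          apply Subtype.ext
          apply Subtype.ext
          have h4 := congrArg Subtype.val hxy
          exact h4
      exact Group.isSolvable_of_ker_le_range g.ker.subtype g (by rw [Subgroup.range_subtype])
    have h2 := hRmax _ (hN.comap _) h1
    rw [eq_bot_iff]
    intro x hx
    obtain ⟨x, rfl⟩ := QuotientGroup.mk_surjective x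
    rw [Subgroup.mem_bot, QuotientGroup.eq_one_iff]
    exact h2 hx
  have hfit : Cfsg.fittingSubgroup (G ⧸ R) = ⊥ := by
    have : Group.IsNilpotent (Cfsg.fittingSubgroup (G ⧸ R)) := Cfsg.Agent.Lib.Cores.fittingSubgroup_isNilpotent
    exact hbot _ (fittingSubgroup_normal _) inferInstance
  obtain ⟨K, hK, -⟩ := exists_isComponent_le (G := G ⧸ R) (C := ⊤) (Subgroup.Normal.isSubnormal inferInstance)
    (fun h1 => hq (Group.isSolvable_of_surjective (f := (⊤ : Subgroup (G ⧸ R)).subtype)
      (fun x => ⟨⟨x, trivial⟩, rfl⟩))) (by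
        rw [hfit]
        intro x _
        rw [Subgroup.mem_centralizer_iff]
        intro y hy
        have : y = 1 := hy
        rw [this, one_mul, mul_one])
  -- the centre of `K` is trivial
  have hcen : Subgroup.center K = ⊥ := by
    have h1 : ((Subgroup.center K).map K.subtype).IsSubnormal :=
      (Subgroup.Normal.isSubnormal inferInstance : (Subgroup.center K).IsSubnormal).trans' hK.1
    have h2 : Group.IsSolvable ((Subgroup.center K).map K.subtype) := isSolvable_map (by
      apply Group.isSolvable_of_comm
      intro a b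
      exact Subtype.ext ((Subgroup.mem_center_iff.1 b.2) a)) _
    obtain ⟨N, hN, hNs, hle⟩ := exists_normal_isSolvable_of_isSubnormal h1 h2
    rw [hbot N hN hNs, le_bot_iff, Subgroup.map_eq_bot_iff_of_injective _ K.subtype_injective] at hle
    exact hle
  have hsimple : IsSimpleGroup K := by
    have h1 := hK.2.2
    have e : K ⧸ Subgroup.center K ≃* K := (QuotientGroup.quotientMulEquivOfEq hcen).trans QuotientGroup.quotientBot
    exact Cfsg.Agent.Schreier.KBalance.isSimpleGroup_of_equiv e.symm h1
  have hna : ¬ IsMulCommutative K := by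
    intro h1
    apply not_isSolvable_of_isQuasisimple hK.2
    exact Group.isSolvable_of_comm h1.is_comm.comm
  exact not_spl_of_component hn hβ K hK (H K hna)

end Cfsg.Agent.H487.EvenCoset
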